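import Cfsg.Agent.Lib.LT.Lin
import Cfsg.Agent.Lib.LT.Orth
import Cfsg.Agent.Lib.LT.Sz
import Cfsg.Agent.Lib.LT.Exc

/-!
# Groups of Lie type are `Good` in their defining characteristic
-/

set_option autoImplicit false

namespace Cfsg.Agent.LT

theorem good_of_lie {G : Type*} [Group G] [Finite G] {p : ℕ} [Fact p.Prime]
    (hG : IsLieTypeChar p G) : Good p G ∨ GoodIn p (⊤ : Subgroup G) := by
  rcases hG with ⟨F, _, _, _, n, hn, -, ⟨e⟩⟩ | ⟨F, _, _, _, n, hn, -, ⟨e⟩⟩ |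
    ⟨F, _, _, _, n, q, h1, h2, h3, ⟨e⟩⟩ | ⟨F, _, _, _, n, h1, h2, ⟨e⟩⟩ | ⟨F, _, _, _, n, h1, ⟨e⟩⟩ |
    ⟨F, _, _, _, n, a, b, h1, h2, ⟨e⟩⟩ |
    ⟨F, _, _, _, ⟨-, ⟨e⟩⟩ | ⟨⟨e⟩⟩ | ⟨⟨e⟩⟩ | ⟨⟨e⟩⟩ | ⟨⟨e⟩⟩⟩ |
    ⟨F, _, _, _, q, -, ⟨h, ⟨e⟩⟩ | ⟨h, ⟨e⟩⟩⟩ | ⟨rfl, F, _, _, m, -, h, ⟨e⟩⟩ |
    ⟨rfl, F, _, _, m, -, h, ⟨e⟩⟩ | ⟨rfl, F, _, _, m, -, h, ⟨e⟩⟩
  · exact Or.inl ((good_psl n hn).of_equiv e)
  · exact Or.inl ((good_psp n hn).of_equiv e)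
  · exact Or.inl ((good_psu n q h1 h2 h3).of_equiv e)
  · exact Or.inl ((good_omegaOdd n h1 h2).of_equiv e)
  · exact Or.inl ((good_omegaPlus n h1).of_equiv e)
  · exact Or.inl ((good_omegaMinus n a b h1 h2).of_equiv e)
  · exact Or.inr (good_G2.of_equiv_top e)
  · exact Or.inr (good_F4.of_equiv_top e)
  · exact Or.inr (good_E6.of_equiv_top e)
  · exact Or.inr (good_E7.of_equiv_top e)
  · exact Or.inr (good_E8.of_equiv_top e)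
  · exact Or.inr ((good_2E6 q h).of_equiv_top e)
  · exact Or.inr ((good_3D4 q h).of_equiv_top e)
  · exact Or.inl ((good_sz m h).of_equiv e)
  · exact Or.inr ((good_2F4 m h).of_equiv_top e)
  · exact Or.inr ((good_2G2 m h).of_equiv_top e)

end Cfsg.Agent.LT
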